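import Cfsg.Agent.H939.L64.Grp

/-!
# S5915: the homomorphism into `G`
-/

set_option autoImplicit false

namespace Cfsg.Agent.H939.L64

open Matrix Cfsg

variable {F : Type} [Field F] [Fintype F]

theorem exists_sit (hF : Fintype.card F = 64) {G : Type} [Group G] (H : Subgroup G)
    (e : ↥(generalizedFittingSubgroup ↥H) ≃* ProjectiveSpecialLinearGroup (Fin 2) F)
    {y : SpecialLinearGroup (Fin 2) F} (hord : orderOf y = 65)
    (g1 : ∀ (y g : ↥H), y ∈ generalizedFittingSubgroup ↥H → orderOf y = 65 → Commute g y → g ∈ Subgroup.zpowers y)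
    (g3 : ∀ (y h : ↥H), y ∈ generalizedFittingSubgroup ↥H → orderOf y = 65 →
      ∃ s ∈ generalizedFittingSubgroup ↥H, ∃ i : ℤ, h * y * h⁻¹ = s * y ^ i * s⁻¹) :
    ∃ f : SpecialLinearGroup (Fin 2) F →* G, Function.Injective f ∧ (∀ s, f s ∈ H) ∧
      (∀ h ∈ H, ∃ τ : SpecialLinearGroup (Fin 2) F ≃* SpecialLinearGroup (Fin 2) F, ∀ s, f (τ s) = h * f s * h⁻¹) ∧
      (∀ g ∈ H, Commute g (f y) → g ∈ Subgroup.zpowers (f y)) ∧
      ∀ h ∈ H, ∃ (s : SpecialLinearGroup (Fin 2) F) (i : ℤ), h * f y * h⁻¹ = f s * f y ^ i * (f s)⁻¹ := by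
  obtain ⟨f, hf, hr, hn⟩ := exists_f hF H e
  have hmem : ∀ s, f s ∈ generalizedFittingSubgroup ↥H := fun s => by rw [← hr]; exact ⟨s, rfl⟩
  have hord' : orderOf (f y) = 65 := by rw [orderOf_injective f hf, hord]
  refine ⟨H.subtype.comp f, (Subgroup.subtype_injective H).comp hf, fun s => (f s).2, fun h hh => ?_, fun g hg hc => ?_,
    fun h hh => ?_⟩
  · obtain ⟨τ, hτ⟩ := hn ⟨h, hh⟩
    exact ⟨τ, fun s => congrArg Subtype.val (hτ s)⟩
  · have hc' : Commute (⟨g, hg⟩ : ↥H) (f y) := Subtype.ext hc.eq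
    have h1 := g1 (f y) ⟨g, hg⟩ (hmem y) hord' hc'
    obtain ⟨i, hi⟩ := Subgroup.mem_zpowers_iff.1 h1
    exact Subgroup.mem_zpowers_iff.2 ⟨i, congrArg Subtype.val hi⟩
  · obtain ⟨s, hs, i, hi⟩ := g3 (f y) ⟨h, hh⟩ (hmem y) hord'
    rw [← hr] at hs
    obtain ⟨s', rfl⟩ := hs
    exact ⟨s', i, congrArg Subtype.val hi⟩

end Cfsg.Agent.H939.L64
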