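import Cfsg.Agent.H939.L64.Rot
import Cfsg.Agent.H939.L64.Data
import Cfsg.Agent.H939.L64.Base
import Cfsg.Agent.H259.L64.K3
import Cfsg.Agent.H875.L64.Add
import Cfsg.Agent.H179.SLC.Iface
import Cfsg.Agent.H413.L64.TorZ
import Cfsg.Agent.H484.E8T.K1

/-!
# S5915: the pattern and the type of the element of order 65
-/

set_option autoImplicit false
set_option maxRecDepth 100000

namespace Cfsg.Agent.H939.L64

open Matrix Cfsg Cfsg.Lie
open Cfsg.Agent.H944.Kac Cfsg.Agent.H944.RootVals Cfsg.Agent.H942.E8Tab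
open Cfsg.Agent.H943.SL2Rel Cfsg.Agent.H943.RepAdd Cfsg.Agent.H943.SL2Mod

theorem cnt1 : cntE Y1 (0 : ZMod 65) = 12 := by decide +kernel
theorem cnt5 : cntE Y5 (0 : ZMod 65) = 8 := by decide +kernel

theorem cnt_two {N : ℕ} [NeZero N] (hN : N.Coprime 2) {v : Fin 8 → ZMod N}
    (h2 : (ms chevE8 8 v).map (fun a => 2 * a) = ms chevE8 8 v) (a : ZMod N) : cntE v (2 * a) = cntE v a := by
  have hu : IsUnit (2 : ZMod N) := by
    have := (ZMod.isUnit_iff_coprime 2 N).2 hN.symm
    exact_mod_cast this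
  have hinj : Function.Injective (fun a : ZMod N => 2 * a) := fun a b h => hu.mul_left_cancel h
  unfold cntE
  congr 1
  · conv_lhs => rw [← h2]
    exact Multiset.count_map_eq_count' _ _ hinj a
  · have : 2 * a = 0 ↔ a = 0 := by
      constructor
      · intro h
        exact hinj (h.trans (mul_zero 2).symm)
      · rintro rfl
        exact mul_zero 2
    simp only [this]

theorem lam_prim {F : Type} [Field F] [Fintype F] (hF : Fintype.card F = 64) (ι : F →+* KK) {lam : Fˣ}
    (hl : ∀ x, x ∈ Subgroup.zpowers lam) : IsPrimitiveRoot (ι lam) 63 ∧ lam ^ 63 = 1 := by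
  classical
  have h1 : orderOf lam = 63 := by
    rw [orderOf_eq_card_of_forall_mem_zpowers hl, Nat.card_units, Nat.card_eq_fintype_card, hF]
  have h2 : IsPrimitiveRoot lam 63 := by
    rw [← h1]
    exact IsPrimitiveRoot.orderOf lam
  refine ⟨?_, h2.pow_eq_one⟩
  have h3 : IsPrimitiveRoot (lam : F) 63 := IsPrimitiveRoot.coe_units_iff.2 h2
  exact h3.map_of_injective ι.injective

section

variable {F : Type} [Field F] [Fintype F] [DecidableEq F] {ι : F →+* KK} {lam : Fˣ}
  {y : SpecialLinearGroup (Fin 2) F} {ζ : KK}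

/-- the pattern -/
theorem exists_pat (D : Dat ι lam y ζ) (hy : orderOf y = 65) {f : SpecialLinearGroup (Fin 2) F →* E2}
    (hf : Function.Injective f) :
    (∃ ζ', TorZ (f y) 65 Y1 ζ' ∧ (SpecM ι (rE.comp f) lam y ζ (pat 1) ∨ SpecM ι (rE.comp f) lam y ζ (pat 3))) ∨
      (∃ ζ', TorZ (f y) 65 Y5 ζ' ∧ SpecM ι (rE.comp f) lam y ζ (pat 2)) := by
  obtain ⟨m, hm⟩ := Cfsg.Agent.H179.SLC.R3a D (rE.comp f)
  obtain ⟨hlp, hl1⟩ := lam_prim D.card ι D.gen
  obtain ⟨v, hT, h2, hd⟩ := Cfsg.Agent.H413.L64.T0c (N := 65) (x := f y) (by decide)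
    (by rw [← map_pow, ← hy, pow_orderOf_eq_one, map_one]) D.prim
  obtain ⟨v', hT', h2', hd'⟩ := Cfsg.Agent.H413.L64.T0c (N := 63) (x := f (h lam)) (by decide)
    (by
      rw [← map_pow, ← h_pow, hl1, h_one, map_one]) hlp
  have h65 : ∀ j : ℕ, j < 65 → cntE v (j : ZMod 65) = ∑ b ∈ Finset.range 64, m b * w65 b j := by
    intro j hj
    rw [← hm.1 j hj, ← Cfsg.Agent.H413.L64.T0d hT, ZMod.val_natCast_of_lt hj]
    rfl
  have h63 : ∀ j : ℕ, j < 63 → cntE v' (j : ZMod 63) = ∑ b ∈ Finset.range 64, m b * w63 b j := by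
    intro j hj
    rw [← hm.2 j hj, ← Cfsg.Agent.H413.L64.T0d hT', ZMod.val_natCast_of_lt hj]
    rfl
  -- the rotation
  have hr65 : ∀ j < 65, ∑ b ∈ Finset.range 64, m (rot b) * w65 b j = ∑ b ∈ Finset.range 64, m b * w65 b j := by
    intro j hj
    apply sum65_rot hj
    rw [← h65 j hj, ← h65 _ (Nat.mod_lt _ (by norm_num))]
    have := cnt_two (by decide) h2 (j : ZMod 65)
    rw [← this]
    congr 1
    rw [ZMod.natCast_mod, Nat.cast_mul]
    rfl
  have hr63 : ∀ j < 63, ∑ b ∈ Finset.range 64, m (rot b) * w63 b j = ∑ b ∈ Finset.range 64, m b * w63 b j := by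
    intro j hj
    apply sum63_rot hj
    rw [← h63 j hj, ← h63 _ (Nat.mod_lt _ (by norm_num))]
    have := cnt_two (by decide) h2' (j : ZMod 63)
    rw [← this]
    congr 1
    rw [ZMod.natCast_mod, Nat.cast_mul]
    rfl
  have hrot : ∀ b < 63, m (2 * b % 63) = m b := by
    intro b hb
    have h1 := Cfsg.Agent.H875.L64.R3b (fun b => (m (rot b) : ℤ)) (fun b => (m b : ℤ))
      (fun j hj => by exact_mod_cast hr65 j hj) (fun j hj => by exact_mod_cast hr63 j hj) b (by omega)
    have h2 : rot b = 2 * b % 63 := by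
      unfold rot
      rw [if_neg (by omega)]
    rw [← h2]
    exact_mod_cast h1
  have hm0 : Module.finrank KK (eig rE (f y) 1) = m 0 := by
    have h1 := hm.1 0 (by norm_num)
    rw [sum_zero] at h1
    rw [← h1]
    unfold e65
    rw [pow_zero]
    rfl
  have h0 : m 0 ≠ 248 := by
    intro h
    rw [h, ← finrank_LK] at hm0
    have h1 := Submodule.eq_top_of_finrank_eq hm0
    have h2 : f y = 1 := rE_inj fun v => by
      have h3 : v ∈ eig rE (f y) 1 := by rw [h1]; trivial
      rw [mem_eig, one_smul] at h3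
      exact h3
    rw [← map_one f] at h2
    have h3 := hf h2
    rw [h3, orderOf_one] at hy
    omega
  obtain ⟨p, hp, hpm⟩ := Cfsg.Agent.H259.L64.K3 h2 h2' hrot h65 h63 h0
  have hsp : SpecM ι (rE.comp f) lam y ζ (pat p) := by
    refine ⟨fun j hj => ?_, fun j hj => ?_⟩
    · rw [hm.1 j hj]
      exact Finset.sum_congr rfl fun b hb => by rw [hpm b (Finset.mem_range.1 hb)]
    · rw [hm.2 j hj]
      exact Finset.sum_congr rfl fun b hb => by rw [hpm b (Finset.mem_range.1 hb)]
  -- the type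
  have hd1 : ∀ d : ℕ, d < 65 → 0 < d → ∃ i, (d : ZMod 65) * v i ≠ 0 := by
    intro d hd1 hd2
    by_contra hcon
    push Not at hcon
    have h3 := (hd d).2 hcon
    rw [← map_pow, ← map_one f] at h3
    have h4 := hf h3
    have h5 := orderOf_dvd_of_pow_eq_one h4
    rw [hy] at h5
    have := Nat.le_of_dvd hd2 h5
    omega
  obtain ⟨u, hu⟩ := Cfsg.Agent.H484.E8T.K1 (fun v => TorZ (f y) 65 v ζ) (fun v j hv => Cfsg.Agent.H413.L64.T0a hv j) hT h2
    (by exact_mod_cast hd1 5 (by norm_num) (by norm_num)) (by exact_mod_cast hd1 13 (by norm_num) (by norm_num))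
  rcases hu with hu | hu
  · have hT1 := Cfsg.Agent.H413.L64.T0b u hu
    left
    refine ⟨_, hT1, ?_⟩
    have h3 := Cfsg.Agent.H413.L64.T0d hT1 0
    rw [cnt1, ZMod.val_zero, pow_zero, hm0] at h3
    rcases hp with rfl | rfl | rfl
    · exact Or.inl hsp
    · exfalso
      have := hpm 0 (by norm_num)
      rw [h3] at this
      exact absurd this (by decide)
    · exact Or.inr hsp
  · have hT1 := Cfsg.Agent.H413.L64.T0b u hu
    right
    refine ⟨_, hT1, ?_⟩
    have h3 := Cfsg.Agent.H413.L64.T0d hT1 0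
    rw [cnt5, ZMod.val_zero, pow_zero, hm0] at h3
    rcases hp with rfl | rfl | rfl
    · exfalso
      have := hpm 0 (by norm_num)
      rw [h3] at this
      exact absurd this (by decide)
    · exact hsp
    · exfalso
      have := hpm 0 (by norm_num)
      rw [h3] at this
      exact absurd this (by decide)

end

end Cfsg.Agent.H939.L64
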