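import Cfsg.Agent.H939.L64.Grp
import Cfsg.Agent.H179.SLC.Press
import Cfsg.Agent.H280.L64.RefC
import Cfsg.Agent.H875.L64.Table
import Cfsg.Agent.H950.E8X.EpsD

/-!
# S5915: the statements EPS and R6
-/

set_option autoImplicit false

namespace Cfsg.Agent.H939.L64

open Matrix Cfsg.Agent.H943.SL2Rel Cfsg.Agent.H943.RepAdd Cfsg.Agent.H943.SL2Mod

variable {k : Type} [Field k] [IsAlgClosed k] [CharP k 2] {F : Type} [Field F] [Fintype F] [DecidableEq F] {ι : F →+* k}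
  {lam : Fˣ} {y : SpecialLinearGroup (Fin 2) F} {ζ : k}

theorem rf (D : Dat ι lam y ζ) : Cfsg.Agent.H950.E8X.RF ι lam y ζ :=
  ⟨fun ρ hI => Cfsg.Agent.H179.SLC.R1 D ρ hI, fun ρ W hW _ hb h => Cfsg.Agent.H179.SLC.R2 D ρ W hW hb h⟩

theorem inp (D : Dat ι lam y ζ) : Cfsg.Agent.H280.L64.Inp ι lam y ζ :=
  ⟨fun _ _ _ _ ρ => Cfsg.Agent.H179.SLC.R3a D ρ, fun _ _ _ _ ρ _ hm => Cfsg.Agent.H179.SLC.PR D ρ hm,
    fun _ _ _ _ ρ hI => Cfsg.Agent.H179.SLC.R1 D ρ hI,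
    fun _ _ _ _ ρ W hW _ hb h => (Cfsg.Agent.H179.SLC.R2 D ρ W hW hb h).1 0 (by norm_num)⟩

/-- R6: the refined pressure theorem (`σ` the Frobenius map on the coordinates) -/
theorem R6 (D : Dat ι lam y ζ) {V : Type} [AddCommGroup V] [Module k V] [FiniteDimensional k V]
    (ρ : Representation k (SpecialLinearGroup (Fin 2) F) V) (B : V →ₗ[k] V →ₗ[k] k)
    (hB : ∀ g v w, B (ρ g v) (ρ g w) = B v w) (hnd : ∀ v, (∀ w, B v w = 0) → v = 0)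
    (σ : V ≃+ V) (hσ : ∀ (c : k) v, σ (c • v) = c ^ 2 • σ v) (hσρ : ∀ g v, σ (ρ g v) = ρ g (σ v))
    {m : ℕ → ℕ} (hm : SpecM ι ρ lam y ζ m) (h0 : fixS ρ = ⊥) (hpos : m 0 ≠ 0) : m 0 + 6 ≤ 6 * m 1 :=
  Cfsg.Agent.H280.L64.R6_of ρ D (inp D) B hB hnd σ hσ hσρ hm h0 hpos

/-- **EPS** (helper950): the part without Steinberg factors (`N` = any set of linear automorphisms normalising the image of
`ρ`; `br` a bracket) -/
theorem EPS (D : Dat ι lam y ζ) {V : Type} [AddCommGroup V] [Module k V] [FiniteDimensional k V]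
    (ρ : Representation k (SpecialLinearGroup (Fin 2) F) V) (B : V →ₗ[k] V →ₗ[k] k)
    (hB : ∀ g v w, B (ρ g v) (ρ g w) = B v w) (hnd : ∀ v, (∀ w, B v w = 0) → v = 0)
    (br : V →ₗ[k] V →ₗ[k] V) (hbr : ∀ g v w, ρ g (br v w) = br (ρ g v) (ρ g w)) (hm : SpecM ι ρ lam y ζ (pat 3)) :
    ∃ A : Submodule k V, A ≠ ⊥ ∧ A ≠ ⊤ ∧
      (∀ (n : V ≃ₗ[k] V), (∃ τ : SpecialLinearGroup (Fin 2) F ≃* SpecialLinearGroup (Fin 2) F, ∀ g v, n (ρ g v) = ρ (τ g) (n v)) →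
        ∀ v ∈ A, n v ∈ A) ∧
      (∀ v, ρ y v = v → v ∈ A) ∧ (∀ a ∈ A, ∀ b ∈ A, br a b ∈ A) ∧ (∀ a ∈ A, (∀ b ∈ A, B a b = 0) → a = 0) := by
  have := charP_two D.card
  exact Cfsg.Agent.H950.E8X.EPS' D (rf D) Cfsg.Agent.H875.L64.R3b ρ B hB hnd br hbr hm

end Cfsg.Agent.H939.L64
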