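import Cfsg.Agent.H939.L64.DefR

/-!
# S5915: the rotation of the masks
-/

set_option autoImplicit false
set_option maxRecDepth 100000

namespace Cfsg.Agent.H939.L64

/-- the rotation -/
def rot (b : ℕ) : ℕ := if b = 63 then 63 else 2 * b % 63

def chkA : Bool := (List.range 64).all fun b => (List.range 65).all fun j => w65 (rot b) (2 * j % 65) == w65 b j
def chkB : Bool := (List.range 64).all fun b => (List.range 63).all fun j => w63 (rot b) (2 * j % 63) == w63 b j
def chkC : Bool := (List.range 64).all fun b => w65 b 0 == if b = 0 then 1 else 0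

theorem chkA_true : chkA = true := by decide +kernel
theorem chkB_true : chkB = true := by decide +kernel
theorem chkC_true : chkC = true := by decide +kernel

theorem w65_rot {b j : ℕ} (hb : b < 64) (hj : j < 65) : w65 (rot b) (2 * j % 65) = w65 b j := by
  have h := chkA_true
  rw [chkA, List.all_eq_true] at h
  have h1 := h b (List.mem_range.2 hb)
  rw [List.all_eq_true] at h1
  exact beq_iff_eq.1 (h1 j (List.mem_range.2 hj))

theorem w63_rot {b j : ℕ} (hb : b < 64) (hj : j < 63) : w63 (rot b) (2 * j % 63) = w63 b j := by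
  have h := chkB_true
  rw [chkB, List.all_eq_true] at h
  have h1 := h b (List.mem_range.2 hb)
  rw [List.all_eq_true] at h1
  exact beq_iff_eq.1 (h1 j (List.mem_range.2 hj))

theorem w65_zero {b : ℕ} (hb : b < 64) : w65 b 0 = if b = 0 then 1 else 0 := by
  have h := chkC_true
  rw [chkC, List.all_eq_true] at h
  exact beq_iff_eq.1 (h b (List.mem_range.2 hb))

theorem rot_lt {b : ℕ} (_hb : b < 64) : rot b < 64 := by
  unfold rot
  split_ifs
  · omega
  · have := Nat.mod_lt (2 * b) (show 63 > 0 by norm_num)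
    omega

theorem rot_inj {b b' : ℕ} (_hb : b < 64) (_hb' : b' < 64) (h : rot b = rot b') : b = b' := by
  unfold rot at h
  split_ifs at h <;> omega

theorem sum_rot (f : ℕ → ℕ) : ∑ b ∈ Finset.range 64, f (rot b) = ∑ b ∈ Finset.range 64, f b := by
  have h1 : (Finset.range 64).image rot = Finset.range 64 := by
    apply Finset.eq_of_subset_of_card_le
    · intro x hx
      obtain ⟨b, hb, rfl⟩ := Finset.mem_image.1 hx
      exact Finset.mem_range.2 (rot_lt (Finset.mem_range.1 hb))
    · rw [Finset.card_image_of_injOn]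
      intro a ha b hb h
      exact rot_inj (Finset.mem_range.1 ha) (Finset.mem_range.1 hb) h
  conv_rhs => rw [← h1]
  rw [Finset.sum_image]
  intro a ha b hb h
  exact rot_inj (Finset.mem_range.1 ha) (Finset.mem_range.1 hb) h

/-- the rotated solution -/
theorem sum65_rot {m : ℕ → ℕ} {j : ℕ} (hj : j < 65)
    (h : ∑ b ∈ Finset.range 64, m b * w65 b (2 * j % 65) = ∑ b ∈ Finset.range 64, m b * w65 b j) :
    ∑ b ∈ Finset.range 64, m (rot b) * w65 b j = ∑ b ∈ Finset.range 64, m b * w65 b j := by
  rw [← h, ← sum_rot fun b => m b * w65 b (2 * j % 65)]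
  exact Finset.sum_congr rfl fun b hb => by rw [w65_rot (Finset.mem_range.1 hb) hj]

theorem sum63_rot {m : ℕ → ℕ} {j : ℕ} (hj : j < 63)
    (h : ∑ b ∈ Finset.range 64, m b * w63 b (2 * j % 63) = ∑ b ∈ Finset.range 64, m b * w63 b j) :
    ∑ b ∈ Finset.range 64, m (rot b) * w63 b j = ∑ b ∈ Finset.range 64, m b * w63 b j := by
  rw [← h, ← sum_rot fun b => m b * w63 b (2 * j % 63)]
  exact Finset.sum_congr rfl fun b hb => by rw [w63_rot (Finset.mem_range.1 hb) hj]

theorem sum_zero (m : ℕ → ℕ) : ∑ b ∈ Finset.range 64, m b * w65 b 0 = m 0 := by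
  rw [Finset.sum_eq_single 0]
  · rw [w65_zero (by norm_num), if_pos rfl, mul_one]
  · intro b hb h0
    rw [w65_zero (Finset.mem_range.1 hb), if_neg h0, mul_zero]
  · intro h
    exact absurd (Finset.mem_range.2 (by norm_num)) h

end Cfsg.Agent.H939.L64
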